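import Mathlib

namespace CfsgLib.Zsig

open Polynomial

/-- The absolute value of the cyclotomic value. -/
noncomputable def cyc (n a : ℕ) : ℕ := ((cyclotomic n ℤ).eval (a : ℤ)).natAbs

theorem cyc_dvd_pow_sub_one (n a : ℕ) (hn : 0 < n) (ha : 0 < a) : cyc n a ∣ a ^ n - 1 := by
  obtain ⟨c, hc⟩ := cyclotomic.dvd_X_pow_sub_one n ℤ
  have h1 := congrArg (fun P : ℤ[X] => P.eval (a : ℤ)) hc
  simp only [eval_sub, eval_pow, eval_X, eval_one, eval_mul] at h1
  have h2 : ((a ^ n - 1 : ℕ) : ℤ) = (a : ℤ) ^ n - 1 := by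
    rw [Nat.cast_sub (Nat.one_le_pow _ _ ha)]; push_cast; ring
  refine ⟨(c.eval (a : ℤ)).natAbs, ?_⟩
  rw [cyc, ← Int.natAbs_mul, ← h1, ← h2, Int.natAbs_natCast]

theorem prime_dvd_cyc {r n a : ℕ} [hr : Fact r.Prime] (hn : 0 < n) (h : r ∣ cyc n a) :
    ∃ k m : ℕ, n = r ^ k * m ∧ ¬ r ∣ m ∧ IsPrimitiveRoot ((a : ZMod r)) m := by
  obtain ⟨k, m, hm, rfl⟩ := Nat.exists_eq_pow_mul_and_not_dvd hn.ne' r hr.out.ne_one
  refine ⟨k, m, rfl, hm, ?_⟩
  haveI : NeZero (m : ZMod r) := ⟨by rwa [Ne, ZMod.natCast_eq_zero_iff]⟩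
  rw [← isRoot_cyclotomic_prime_pow_mul_iff_of_charP (p := r) (k := k)]
  rw [IsRoot, ← map_cyclotomic_int, ← Int.cast_natCast a]
  rw [eval_intCast_map]
  simp only [Int.coe_castRingHom]
  exact (ZMod.intCast_zmod_eq_zero_iff_dvd _ r).mpr (Int.natCast_dvd.mpr h)

theorem sum_pow_not_dvd {p b : ℕ} (hp : p.Prime) (hodd : Odd p) (hb : p ∣ b - 1) (hb1 : 0 < b) :
    ¬ p ^ 2 ∣ ∑ i ∈ Finset.range p, b ^ i := by
  obtain ⟨t, ht⟩ := hb
  intro h
  have h1 := odd_sq_dvd_geom_sum₂_sub (R := ℤ) (a := (1 : ℤ)) (t : ℤ) hodd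
  simp only [one_pow, mul_one] at h1
  have hb' : (b : ℤ) = 1 + (p : ℤ) * t := by
    have : b = 1 + p * t := by omega
    exact_mod_cast this
  rw [← hb'] at h1
  have h2 : ((p : ℤ) ^ 2) ∣ ∑ i ∈ Finset.range p, (b : ℤ) ^ i := by exact_mod_cast h
  have h3 : ((p : ℤ) ^ 2) ∣ (p : ℤ) := by
    have := dvd_sub h2 h1
    simpa using this
  have h4 : p ^ 2 ∣ p := by exact_mod_cast h3
  have := Nat.le_of_dvd hp.pos h4
  nlinarith [hp.two_le]

theorem prime_dvd_of_no_primitive {n a : ℕ} (ha : 1 < a) (hn : 0 < n)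
    (hno : ∀ r : ℕ, r.Prime → r ∣ a ^ n - 1 → ∃ k : ℕ, 0 < k ∧ k < n ∧ r ∣ a ^ k - 1)
    {r : ℕ} (hr : r.Prime) (h : r ∣ cyc n a) :
    ∃ k m : ℕ, n = r ^ (k + 1) * m ∧ ¬ r ∣ m ∧ m ∣ r - 1 ∧ (a : ZMod r) ^ m = 1 ∧ m ≠ 0 ∧ (m = 1 → r ∣ a - 1) := by
  haveI := Fact.mk hr
  obtain ⟨k, m, rfl, hm, hprim⟩ := prime_dvd_cyc hn h
  have hm0 : m ≠ 0 := fun e => hm (e ▸ dvd_zero r)
  cases k with
  | zero =>
    exfalso
    obtain ⟨j, hj, hjn, hdvd⟩ := hno r hr (h.trans (cyc_dvd_pow_sub_one _ a hn (by omega)))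
    have h1 : (a : ZMod r) ^ j = 1 := by
      have h2 : ((a ^ j - 1 : ℕ) : ZMod r) = 0 := (ZMod.natCast_eq_zero_iff _ _).mpr hdvd
      rw [Nat.cast_sub (Nat.one_le_pow _ _ (by omega)), sub_eq_zero] at h2
      simpa using h2
    have := Nat.le_of_dvd hj (hprim.dvd_of_pow_eq_one j h1)
    simp at hjn
    omega
  | succ k =>
    refine ⟨k, m, rfl, hm, ?_, hprim.pow_eq_one, hm0, ?_⟩
    · have h0 : (a : ZMod r) ≠ 0 := hprim.ne_zero hm0
      exact hprim.dvd_of_pow_eq_one _ (ZMod.pow_card_sub_one_eq_one h0)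
    · intro e
      subst e
      have h1 : (a : ZMod r) = 1 := by simpa using hprim.pow_eq_one
      rw [← ZMod.natCast_eq_zero_iff, Nat.cast_sub (by omega), h1]
      simp

theorem unique_prime_dvd {n a : ℕ} (ha : 1 < a) (hn : 0 < n)
    (hno : ∀ r : ℕ, r.Prime → r ∣ a ^ n - 1 → ∃ k : ℕ, 0 < k ∧ k < n ∧ r ∣ a ^ k - 1)
    {r s : ℕ} (hr : r.Prime) (hs : s.Prime) (h : r ∣ cyc n a) (h' : s ∣ cyc n a) : r = s := by
  obtain ⟨k, m, e, -, hm, -, hm0, -⟩ := prime_dvd_of_no_primitive ha hn hno hr h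
  obtain ⟨l, m', e', -, hm', -, hm0', -⟩ := prime_dvd_of_no_primitive ha hn hno hs h'
  by_contra hne
  have key : ∀ {x y i u : ℕ}, x.Prime → y.Prime → x ≠ y → n = y ^ (i + 1) * u → u ∣ y - 1 → x ∣ n → x < y := by
    intro x y i u hx hy hxy en hu hxn
    rw [en] at hxn
    rcases hx.dvd_mul.mp hxn with h1 | h1
    · exact absurd ((Nat.prime_dvd_prime_iff_eq hx hy).mp (hx.dvd_of_dvd_pow h1)) hxy
    · have h3 : 0 < y - 1 := Nat.sub_pos_of_lt hy.one_lt
      have := Nat.le_of_dvd h3 (h1.trans hu)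
      omega
  have h1 := key hr hs hne e' hm' (e ▸ (dvd_pow_self r (Nat.succ_ne_zero k)).mul_right m)
  have h2 := key hs hr (Ne.symm hne) e hm (e' ▸ (dvd_pow_self s (Nat.succ_ne_zero l)).mul_right m')
  omega

theorem cyc_mul_dvd {n d a : ℕ} (hd : d ∈ n.properDivisors) (ha : 0 < a) :
    (a ^ d - 1) * cyc n a ∣ a ^ n - 1 := by
  obtain ⟨c, hc⟩ := X_pow_sub_one_mul_cyclotomic_dvd_X_pow_sub_one_of_dvd ℤ hd
  have h1 := congrArg (fun P : ℤ[X] => P.eval (a : ℤ)) hc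
  simp only [eval_sub, eval_pow, eval_X, eval_one, eval_mul] at h1
  have hcast : ∀ e : ℕ, ((a ^ e - 1 : ℕ) : ℤ) = (a : ℤ) ^ e - 1 := fun e => by
    rw [Nat.cast_sub (Nat.one_le_pow _ _ ha)]; push_cast; ring
  rw [← hcast, ← hcast] at h1
  refine ⟨(c.eval (a : ℤ)).natAbs, ?_⟩
  have := congrArg Int.natAbs h1
  rw [Int.natAbs_natCast, Int.natAbs_mul, Int.natAbs_mul, Int.natAbs_natCast] at this
  exact this

theorem sq_not_dvd_cyc {n a p k m : ℕ} (ha : 1 < a) (hn : 3 ≤ n) (hp : p.Prime) (e : n = p ^ (k + 1) * m)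
    (hm : m ∣ p - 1) (hpow : (a : ZMod p) ^ m = 1) : ¬ p ^ 2 ∣ cyc n a := by
  haveI := Fact.mk hp
  have hm0 : m ≠ 0 := by rintro rfl; simp at e; omega
  set d := p ^ k * m with hd
  have hd0 : 0 < d := Nat.mul_pos (pow_pos hp.pos k) (Nat.pos_of_ne_zero hm0)
  have hnd : n = d * p := by rw [e, hd, pow_succ]; ring
  have hdn : d ∈ n.properDivisors := Nat.mem_properDivisors.mpr ⟨⟨p, hnd⟩, by
    rw [hnd]; exact lt_mul_right hd0 hp.one_lt⟩
  have h1 : p ∣ a ^ d - 1 := by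
    have h2 : ((a ^ d - 1 : ℕ) : ZMod p) = 0 := by
      rw [Nat.cast_sub (Nat.one_le_pow _ _ (by omega))]
      push_cast
      rw [hd, mul_comm, pow_mul, hpow, one_pow, sub_self]
    exact (ZMod.natCast_eq_zero_iff _ _).mp h2
  have hb : 1 ≤ a ^ d := Nat.one_le_pow _ _ (by omega)
  have hb2 : 0 < a ^ d - 1 := Nat.sub_pos_of_lt (Nat.one_lt_pow hd0.ne' ha)
  have h3 := cyc_mul_dvd hdn (show 0 < a by omega)
  have hgeo : a ^ n - 1 = (a ^ d - 1) * ∑ i ∈ Finset.range p, (a ^ d) ^ i := by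
    rw [hnd, pow_mul]
    have := geom_sum_mul_add (a ^ d - 1) p
    rw [Nat.sub_add_cancel hb] at this
    rw [← this, Nat.add_sub_cancel, mul_comm]
  rw [hgeo] at h3
  have h4 : cyc n a ∣ ∑ i ∈ Finset.range p, (a ^ d) ^ i := Nat.dvd_of_mul_dvd_mul_left hb2 h3
  intro h5
  rcases hp.eq_two_or_odd' with h2 | h2
  · subst h2
    have hm1 : m = 1 := by simpa using hm
    subst hm1
    have hk : 1 ≤ k := by
      by_contra hk
      have : k = 0 := by omega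
      subst this; simp at e; omega
    have hsum : 2 ^ 2 ∣ 1 + a ^ d := by simpa [Finset.sum_range_succ] using h5.trans h4
    have hodd : a % 2 = 1 := by
      have h7 : (a : ZMod 2) = 1 := by simpa using hpow
      have := (ZMod.natCast_eq_natCast_iff' a 1 2).mp (by simpa using h7)
      simpa using this
    obtain ⟨j, rfl⟩ : ∃ j, k = j + 1 := ⟨k - 1, by omega⟩
    have : a ^ d = (a ^ 2 ^ j) ^ 2 := by rw [hd, ← pow_mul, mul_one, pow_succ]
    rw [this] at hsum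
    obtain ⟨c, hc⟩ : Odd (a ^ 2 ^ j) := (Nat.odd_iff.mpr hodd).pow
    rw [hc] at hsum
    have e4 : (2 * c + 1) ^ 2 = 4 * (c * c + c) + 1 := by ring
    rw [e4] at hsum
    omega
  · exact sum_pow_not_dvd hp h2 h1 (by omega) (h5.trans h4)

theorem lower_bound {n a : ℕ} (hn : 2 ≤ n) (ha : a ≠ 1) : (a - 1) ^ n.totient < cyc n a :=
  sub_one_pow_totient_lt_natAbs_cyclotomic_eval (by omega) ha

theorem prime_lt_cyc_of_three_le {n a p : ℕ} (ha : 3 ≤ a) (hn : 2 ≤ n) (hpn : p ∣ n) (hp : p.Prime) :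
    p < cyc n a := by
  refine lt_of_le_of_lt ?_ (lower_bound hn (by omega))
  have h1 : p - 1 ≤ n.totient := by
    rw [← Nat.totient_prime hp]
    exact Nat.le_of_dvd (Nat.totient_pos.mpr (by omega)) (Nat.totient_dvd_of_dvd hpn)
  calc p ≤ 2 ^ (p - 1) := by
        have := (p - 1).lt_two_pow_self
        omega
    _ ≤ 2 ^ n.totient := Nat.pow_le_pow_right (by norm_num) h1
    _ ≤ (a - 1) ^ n.totient := Nat.pow_le_pow_left (by omega) _

theorem cyc_mul_prime_of_dvd {n p a : ℕ} (hp : p.Prime) (h : p ∣ n) : cyc (n * p) a = cyc n (a ^ p) := by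
  rw [cyc, cyc, ← cyclotomic_expand_eq_cyclotomic hp h, expand_eval]
  push_cast; rfl

theorem cyc_mul_prime_of_not_dvd {n p a : ℕ} (hp : p.Prime) (h : ¬ p ∣ n) :
    cyc (n * p) a * cyc n a = cyc n (a ^ p) := by
  rw [cyc, cyc, cyc, ← Int.natAbs_mul, ← eval_mul, ← cyclotomic_expand_eq_cyclotomic_mul hp h, expand_eval]
  push_cast; rfl

theorem cyc_two_le {m : ℕ} : cyc m 2 ≤ 3 ^ m.totient := by
  have h1 := cyclotomic_eval_le_add_one_pow_totient (q := (2 : ℝ)) (by norm_num) m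
  have h2 := cyclotomic_nonneg (R := ℝ) m (x := (2 : ℝ)) (by norm_num)
  have h3 : ((cyc m 2 : ℕ) : ℝ) = (cyclotomic m ℝ).eval 2 := by
    rw [cyc, Nat.cast_natAbs, Int.cast_abs]
    have : (((cyclotomic m ℤ).eval ((2 : ℕ) : ℤ) : ℤ) : ℝ) = (cyclotomic m ℝ).eval 2 := by
      rw [← map_cyclotomic_int m ℝ]
      rw [show (2 : ℝ) = ((2 : ℤ) : ℝ) by norm_num, eval_intCast_map]
      rfl
    rw [this, abs_of_nonneg h2]
  have : ((cyc m 2 : ℕ) : ℝ) ≤ ((3 ^ m.totient : ℕ) : ℝ) := by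
    rw [h3]; push_cast
    calc _ ≤ ((2 : ℝ) + 1) ^ m.totient := h1
      _ = _ := by norm_num
  exact_mod_cast this

theorem prime_ne_cyc_two {n p k m : ℕ} (hp : p.Prime) (hp2 : p ≠ 2) (e : n = p ^ (k + 1) * m) (hpm : ¬ p ∣ m)
    (hm : m ∣ p - 1) (hm1 : m ≠ 1) (h6 : n ≠ 6) : cyc n 2 ≠ p := by
  have hp3 : 3 ≤ p := by have := hp.two_le; omega
  have hm0 : m ≠ 0 := fun h => hpm (h ▸ dvd_zero p)
  have hpp : p < 2 ^ p - 1 := by
    obtain ⟨j, rfl⟩ : ∃ j, p = j + 1 := ⟨p - 1, by omega⟩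
    have := (Nat.lt_two_pow_self : j < 2 ^ j)
    rw [pow_succ]; omega
  intro hc
  cases k with
  | succ k =>
    have hd : p ∣ p ^ (k + 1) * m := (dvd_pow_self p (Nat.succ_ne_zero k)).mul_right m
    have hd2 : 2 ≤ p ^ (k + 1) * m :=
      hp.two_le.trans (Nat.le_of_dvd (Nat.mul_pos (pow_pos hp.pos _) (Nat.pos_of_ne_zero hm0)) hd)
    have := cyc_mul_prime_of_dvd (a := 2) hp hd
    rw [show p ^ (k + 1) * m * p = n by rw [e, pow_succ p (k + 1)]; ring, hc] at this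
    have hlb := lower_bound (a := 2 ^ p) hd2 (by have := Nat.one_le_two_pow (n := p); omega)
    rw [← this] at hlb
    have : 2 ^ p - 1 ≤ (2 ^ p - 1) ^ (p ^ (k + 1) * m).totient :=
      le_self_pow₀ (by omega) (Nat.totient_pos.mpr (by omega)).ne'
    omega
  | zero =>
    simp only [zero_add, pow_one] at e
    have := cyc_mul_prime_of_not_dvd (a := 2) hp hpm
    rw [mul_comm m p, ← e, hc] at this
    have hlb := lower_bound (a := 2 ^ p) (show 2 ≤ m by omega) (by have := Nat.one_le_two_pow (n := p); omega)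
    rw [← this] at hlb
    have hφ : 1 ≤ m.totient := Nat.totient_pos.mpr (by omega)
    have h3 : p * cyc m 2 ≤ p * 3 ^ m.totient := Nat.mul_le_mul_left p cyc_two_le
    by_cases h5 : p = 3
    · subst h5
      have : m ≤ 2 := Nat.le_of_dvd (by norm_num) hm
      omega
    · have hp5 : 5 ≤ p := by
        have : p ≠ 4 := by rintro rfl; norm_num at hp
        omega
      have h4 : 3 * p ≤ 2 ^ p - 1 := by
        obtain ⟨j, rfl⟩ : ∃ j, p = j + 5 := ⟨p - 5, by omega⟩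
        have := (Nat.lt_two_pow_self : j < 2 ^ j)
        rw [pow_add]; omega
      have h7 : (3 * p) ^ m.totient ≤ (2 ^ p - 1) ^ m.totient := Nat.pow_le_pow_left h4 _
      rw [mul_pow] at h7
      have h8 : p * 3 ^ m.totient ≤ 3 ^ m.totient * p ^ m.totient := by
        rw [mul_comm p]; exact Nat.mul_le_mul_left _ (le_self_pow₀ (by omega) (by omega))
      omega

theorem zsigmondy (a n : ℕ) (ha : 1 < a) (hn : 1 < n) (h6 : ¬ (a = 2 ∧ n = 6))
    (h2 : ¬ (n = 2 ∧ ∃ m : ℕ, a + 1 = 2 ^ m)) :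
    ∃ r : ℕ, r.Prime ∧ r ∣ a ^ n - 1 ∧ ∀ k : ℕ, 0 < k → k < n → ¬ r ∣ a ^ k - 1 := by
  by_cases hn2 : n = 2
  · subst hn2
    obtain ⟨r, hr, hra, hr2⟩ : ∃ r : ℕ, r.Prime ∧ r ∣ a + 1 ∧ r ≠ 2 := by
      by_contra hh
      push Not at hh
      exact h2 ⟨rfl, _, Nat.eq_prime_pow_of_unique_prime_dvd (by omega) (fun {d} hd hd' => hh d hd hd')⟩
    refine ⟨r, hr, ?_, fun k h0 hk => ?_⟩
    · rw [show a ^ 2 - 1 = (a + 1) * (a - 1) by rw [← Nat.sq_sub_sq, one_pow]]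
      exact hra.mul_right _
    · interval_cases k
      rw [pow_one]
      intro hd
      have h3 := Nat.dvd_sub hra hd
      rw [show a + 1 - (a - 1) = 2 by omega] at h3
      exact hr2 ((Nat.prime_dvd_prime_iff_eq hr Nat.prime_two).mp h3)
  by_contra hh
  push Not at hh
  have hone : cyc n a ≠ 1 := by
    have := lower_bound (a := a) hn (by omega)
    have h0 : 1 ≤ (a - 1) ^ n.totient := Nat.one_le_pow _ _ (by omega)
    omega
  obtain ⟨p, hp, hpc⟩ := Nat.exists_prime_and_dvd hone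
  have hne : cyc n a ≠ 0 := by
    have := lower_bound (a := a) hn (by omega); omega
  have hpow := Nat.eq_prime_pow_of_unique_prime_dvd hne
    (fun {d} hd hd' => unique_prime_dvd ha (by omega) hh hd hp hd' hpc)
  obtain ⟨k, m, e, hpm, hm, hpw, -, hm1⟩ := prime_dvd_of_no_primitive ha (by omega) hh hp hpc
  have hsq := sq_not_dvd_cyc ha (by omega) hp e hm hpw
  have hcp : cyc n a = p := by
    generalize (cyc n a).primeFactorsList.length = L at hpow
    match L with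
    | 0 => rw [pow_zero] at hpow; exact absurd hpow hone
    | 1 => rwa [pow_one] at hpow
    | j + 2 => exact absurd (by rw [hpow]; exact pow_dvd_pow p (by omega)) hsq
  rcases Nat.lt_or_ge a 3 with h3 | h3
  · have ha2 : a = 2 := by omega
    subst ha2
    have hp2 : p ≠ 2 := by
      rintro rfl
      have h4 := hpc.trans (cyc_dvd_pow_sub_one n 2 (by omega) (by norm_num))
      have h5 : 2 ∣ 2 ^ n := dvd_pow_self 2 (by omega)
      have := Nat.one_le_two_pow (n := n)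
      omega
    refine prime_ne_cyc_two hp hp2 e hpm hm (fun h => ?_) (fun h => h6 ⟨rfl, h⟩) hcp
    have := hm1 h
    simp at this
    exact hp.one_lt.ne' this
  · exact (prime_lt_cyc_of_three_le h3 hn (e ▸ (dvd_pow_self p (Nat.succ_ne_zero k)).mul_right m) hp).ne' hcp

end CfsgLib.Zsig
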